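import Cfsg.Agent.H672.Four.Interface
import Cfsg.Agent.H967.CopCycAll
import Cfsg.Agent.H566.SemiFix
import Cfsg.Agent.Lib.Zsigmondy
import Cfsg.Agent.S1065
import Cfsg.Agent.Schreier.TwESix

/-!
# Elements fixed by no coprime automorphism of prime order: exceptional groups (helper316, S4773-F2c)

`es_of_row` : for a matrix group whose coprime automorphisms are conjugate to field automorphisms, an element of prime
order `l`, `l` a primitive prime divisor of `r ^ (d f) - 1`, is fixed by no automorphism of prime order `p ∤ |S|` if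
`dim < p d`.  `es_g2`, `es_f4`, `es_e6`, `es_e7`, `es_e8`, `es_2e6`.
-/

set_option autoImplicit false

namespace Cfsg.Agent.H316.ES

open Cfsg.Lie Cfsg.Agent.H672.Four Cfsg.Agent.H967.CopRow Cfsg.Agent.H967.CopMat

universe u

/-- **The general row.** -/
theorem es_of_row {ι : Type*} [Fintype ι] [DecidableEq ι] {F : Type*} [Field F] [Fintype F] {G : Subgroup (GL ι F)}
    (R : Row G) {K : Type u} [Group K] [Finite K] (e : K ≃* ↥G) {r f l d : ℕ} (hr : r.Prime)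
    (hF : Fintype.card F = r ^ f) (hl : l.Prime) (hd : ∀ m, l ∣ r ^ m - 1 ↔ d * f ∣ m) (hd0 : d ≠ 0)
    (hlK : l ∣ Nat.card K) (hp : ∀ p : ℕ, p.Prime → ¬ p ∣ Nat.card K → Fintype.card ι < p * d) : ∃ s : K, ES s := by
  have : Fact l.Prime := ⟨hl⟩
  obtain ⟨s, hs⟩ := exists_prime_orderOf_dvd_card' l hlK
  refine ⟨s, fun a ha hna has => ?_⟩
  obtain ⟨e', σ, h1, h2⟩ := R.exists_equiv_one e a (((Nat.Prime.coprime_iff_not_dvd ha).2 hna))
  have h3 := h1 s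
  rw [has] at h3
  have h4 : ((e' s : GL ι F) : Matrix ι ι F) = ((e' s : GL ι F) : Matrix ι ι F).map σ :=
    congrArg (fun z : ↥G => ((z : GL ι F) : Matrix ι ι F)) h3
  have hso : orderOf (e' s) = l := by rw [MulEquiv.orderOf_eq, hs]
  have h5 := H566.SemiFix.le_of_semi ha h2 hr hF hl hd hd0 (y := ((e' s : GL ι F) : Matrix ι ι F))
    (g := 1) isUnit_one ?_ ?_ (by rw [one_mul, mul_one]; exact h4.symm)
  · exact absurd h5 (not_le.2 (hp _ ha hna))
  · have h6 : (e' s) ^ l = 1 := by rw [← hso, pow_orderOf_eq_one]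
    have h7 := congrArg (fun z : ↥G => ((z : GL ι F) : Matrix ι ι F)) h6
    simpa using h7
  · intro h6
    have h7 : e' s = 1 := Subtype.ext (Units.ext h6)
    rw [h7, orderOf_one] at hso
    exact hl.one_lt.ne hso

/-! ### arithmetic -/

theorem dvd_pow_sub {p q k : ℕ} (hp : p.Prime) (hpq : ¬ p ∣ q) (hk : p - 1 ∣ k) : p ∣ q ^ k - 1 := by
  have : Fact p.Prime := ⟨hp⟩
  have hq : 1 ≤ q := Nat.one_le_iff_ne_zero.2 (by rintro rfl; exact hpq (dvd_zero p))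
  have h1 : ((q : ZMod p)) ^ (p - 1) = 1 := by
    apply ZMod.pow_card_sub_one_eq_one
    rwa [Ne, ZMod.natCast_eq_zero_iff]
  obtain ⟨c, rfl⟩ := hk
  have h2 : ((q ^ ((p - 1) * c) : ℕ) : ZMod p) = ((1 : ℕ) : ZMod p) := by
    push_cast
    rw [pow_mul, h1, one_pow]
  rw [ZMod.natCast_eq_natCast_iff] at h2
  exact (Nat.modEq_iff_dvd' (Nat.one_le_pow _ _ hq)).1 h2.symm

/-- the squares of the primes `2, 3, 5, 7` divide the order -/
theorem sq_dvd {p q x N : ℕ} (hp : p.Prime) (h11 : p < 11) (hx : 6 ∣ x)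
    (hN : q ^ 2 * ((q ^ 2 - 1) * ((q ^ 8 - 1) * ((q ^ 12 - 1) * (q ^ x - 1)))) ∣ N) : p ^ 2 ∣ N := by
  by_cases hpq : p ∣ q
  · exact (pow_dvd_pow_of_dvd hpq 2).trans ((dvd_mul_right _ _).trans hN)
  · refine dvd_trans ?_ ((dvd_mul_left _ _).trans hN)
    have h12 : p - 1 ∣ 12 := by interval_cases p <;> first | decide | exact absurd hp (by decide)
    have d12 := dvd_pow_sub hp hpq h12
    rw [pow_two]
    by_cases h8 : p - 1 ∣ 8
    · have d8 := dvd_pow_sub hp hpq h8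
      have h1 : p * p ∣ (q ^ 8 - 1) * (q ^ 12 - 1) := mul_dvd_mul d8 d12
      have h2 : (q ^ 8 - 1) * (q ^ 12 - 1) ∣ (q ^ 2 - 1) * ((q ^ 8 - 1) * ((q ^ 12 - 1) * (q ^ x - 1))) :=
        ⟨(q ^ 2 - 1) * (q ^ x - 1), by ring⟩
      exact h1.trans h2
    · have h6 : p - 1 ∣ 6 := by
        interval_cases p <;> first | decide | exact absurd hp (by decide) | exact absurd (by decide) h8
      have dx := dvd_pow_sub hp hpq (h6.trans hx)
      have h1 : p * p ∣ (q ^ 12 - 1) * (q ^ x - 1) := mul_dvd_mul d12 dx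
      have h2 : (q ^ 12 - 1) * (q ^ x - 1) ∣ (q ^ 2 - 1) * ((q ^ 8 - 1) * ((q ^ 12 - 1) * (q ^ x - 1))) :=
        ⟨(q ^ 2 - 1) * (q ^ 8 - 1), by ring⟩
      exact h1.trans h2

/-- primes not dividing the order are at least `11` -/
theorem eleven_le {p q x N c n : ℕ} (hp : p.Prime) (hx : 6 ∣ x) (hc0 : 0 < c) (hc : c < 4) (hcn : c * n = N)
    (hN : q ^ 2 * ((q ^ 2 - 1) * ((q ^ 8 - 1) * ((q ^ 12 - 1) * (q ^ x - 1)))) ∣ N) (hpn : ¬ p ∣ n) : 11 ≤ p := by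
  by_contra h
  have h1 := sq_dvd hp (not_le.1 h) hx hN
  rw [← hcn] at h1
  have h2 : (p ^ 2).Coprime n := Nat.Coprime.pow_left _ ((Nat.Prime.coprime_iff_not_dvd hp).2 hpn)
  have h3 := Nat.le_of_dvd hc0 (h2.dvd_of_dvd_mul_right h1)
  have h4 := hp.two_le
  nlinarith

/-- the primitive prime divisor divides the order -/
theorem prim_dvd {l N c n : ℕ} (hl : l.Prime) (hl3 : 3 < l) (hc0 : 0 < c) (hc : c < 4) (hcn : c * n = N)
    (h : l ∣ N) : l ∣ n := by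
  rw [← hcn] at h
  refine (hl.dvd_mul.1 h).resolve_left fun h1 => ?_
  have := Nat.le_of_dvd hc0 h1
  omega

theorem exists_prim {r f d : ℕ} (hr : r.Prime) (hf : 1 ≤ f) (hd : 6 ≤ d) (h6 : ¬ (r = 2 ∧ d * f = 6)) :
    ∃ l : ℕ, l.Prime ∧ (∀ m, l ∣ r ^ m - 1 ↔ d * f ∣ m) ∧ 3 < l := by
  have h1 : 6 ≤ d * f := le_trans hd (Nat.le_mul_of_pos_right d hf)
  obtain ⟨l, hl, h2, h3, -⟩ := Lib.Zsigmondy.exists_primitive (a := r) (n := d * f) hr.two_le (by omega) (by omega) h6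
  refine ⟨l, hl, h2, ?_⟩
  have h4 := Nat.le_of_dvd (by have := hl.two_le; omega) h3
  omega

/-! ### the rows -/

variable {K : Type u} [Group K] [IsSimpleGroup K]

theorem es_g2 (h : IsoChevG2 K) : ∃ s : K, ES s := by
  obtain ⟨F, _, _, h3, ⟨e⟩⟩ := h
  have := H967.CopCycAll.simple_of_equiv e
  have hK : Finite K := Finite.of_equiv _ e.symm.toEquiv
  obtain ⟨r, f, hr, hc, hf, hF⟩ := H967.CopChev.exists_char F
  have hcard : Nat.card K = (r ^ f) ^ 6 * ((r ^ f) ^ 2 - 1) * ((r ^ f) ^ 6 - 1) := by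
    rw [Nat.card_congr e.toEquiv, S1059.result hF]
  obtain ⟨l, hl, hd, hl3⟩ := exists_prim (d := 6) hr hf le_rfl (by
    rintro ⟨rfl, h1⟩
    have h2 : f = 1 := by omega
    rw [h2, pow_one] at hF
    omega)
  refine es_of_row (H967.CopChev.row_g2 h3) e hr hF hl hd (by norm_num) ?_ ?_
  · rw [hcard]
    refine Dvd.dvd.mul_left ?_ _
    rw [← pow_mul, mul_comm f 6]
    exact (hd _).2 dvd_rfl
  · intro p hp hpn
    have h14 : Fintype.card chevG2.Idx = 14 := by decide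
    have h2 : p ≠ 2 := by
      rintro rfl
      apply hpn
      rw [hcard]
      exact H967.CopChev.two_dvd_of (by norm_num)
    have := hp.two_le
    rw [h14]
    omega

theorem es_f4 (h : IsoF4 K) : ∃ s : K, ES s := by
  obtain ⟨F, _, _, ⟨e⟩⟩ := h
  have := H967.CopCycAll.simple_of_equiv e
  have hK : Finite K := Finite.of_equiv _ e.symm.toEquiv
  obtain ⟨r, f, hr, hc, hf, hF⟩ := H967.CopChev.exists_char F
  have hcard : 1 * Nat.card K = (r ^ f) ^ 24 * ((r ^ f) ^ 2 - 1) * ((r ^ f) ^ 6 - 1) * ((r ^ f) ^ 8 - 1) *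
      ((r ^ f) ^ 12 - 1) := by
    rw [one_mul, Nat.card_congr e.toEquiv, S1062.result hF]
  obtain ⟨l, hl, hd, hl3⟩ := exists_prim (d := 12) hr hf (by norm_num) (by omega)
  refine es_of_row H967.CopChev.row_f4 e hr hF hl hd (by norm_num) ?_ ?_
  · refine prim_dvd hl hl3 (by norm_num) (by norm_num) hcard (Dvd.dvd.mul_left ?_ _)
    rw [← pow_mul, mul_comm f 12]
    exact (hd _).2 dvd_rfl
  · intro p hp hpn
    have h11 := eleven_le hp (x := 6) (by norm_num) (by norm_num) (by norm_num) hcard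
      (q := r ^ f) ⟨(r ^ f) ^ 22, by ring⟩ hpn
    have h52 : Fintype.card chevF4.Idx = 52 := by decide
    rw [h52]
    omega

theorem es_e6 (h : IsoChevE6 K) : ∃ s : K, ES s := by
  obtain ⟨F, _, _, ⟨e⟩⟩ := h
  have := H967.CopCycAll.simple_of_equiv e
  have hK : Finite K := Finite.of_equiv _ e.symm.toEquiv
  obtain ⟨r, f, hr, hc, hf, hF⟩ := H967.CopChev.exists_char F
  have hcard : Nat.gcd 3 (r ^ f - 1) * Nat.card K = (r ^ f) ^ 36 * ((r ^ f) ^ 2 - 1) * ((r ^ f) ^ 5 - 1) *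
      ((r ^ f) ^ 6 - 1) * ((r ^ f) ^ 8 - 1) * ((r ^ f) ^ 9 - 1) * ((r ^ f) ^ 12 - 1) := by
    rw [Nat.card_congr e.toEquiv, S1063.result hF]
  have hc0 : 0 < Nat.gcd 3 (r ^ f - 1) := Nat.gcd_pos_of_pos_left _ (by norm_num)
  have hc4 : Nat.gcd 3 (r ^ f - 1) < 4 := lt_of_le_of_lt (Nat.gcd_le_left _ (by norm_num)) (by norm_num)
  obtain ⟨l, hl, hd, hl3⟩ := exists_prim (d := 12) hr hf (by norm_num) (by omega)
  refine es_of_row H967.CopChev.row_e6 e hr hF hl hd (by norm_num) ?_ ?_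
  · refine prim_dvd hl hl3 hc0 hc4 hcard (Dvd.dvd.mul_left ?_ _)
    rw [← pow_mul, mul_comm f 12]
    exact (hd _).2 dvd_rfl
  · intro p hp hpn
    have h11 := eleven_le hp (x := 6) (by norm_num) hc0 hc4 hcard
      (q := r ^ f) ⟨(r ^ f) ^ 34 * ((r ^ f) ^ 5 - 1) * ((r ^ f) ^ 9 - 1), by ring⟩ hpn
    have h78 : Fintype.card chevE6.Idx = 78 := by decide
    rw [h78]
    omega

theorem es_e7 (h : IsoE7 K) : ∃ s : K, ES s := by
  obtain ⟨F, _, _, ⟨e⟩⟩ := h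
  have := H967.CopCycAll.simple_of_equiv e
  have hK : Finite K := Finite.of_equiv _ e.symm.toEquiv
  obtain ⟨r, f, hr, hc, hf, hF⟩ := H967.CopChev.exists_char F
  have hcard : Nat.gcd 2 (r ^ f - 1) * Nat.card K = (r ^ f) ^ 63 * ((r ^ f) ^ 2 - 1) * ((r ^ f) ^ 6 - 1) *
      ((r ^ f) ^ 8 - 1) * ((r ^ f) ^ 10 - 1) * ((r ^ f) ^ 12 - 1) * ((r ^ f) ^ 14 - 1) * ((r ^ f) ^ 18 - 1) := by
    rw [Nat.card_congr e.toEquiv, S1064.result hF]
  have hc0 : 0 < Nat.gcd 2 (r ^ f - 1) := Nat.gcd_pos_of_pos_left _ (by norm_num)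
  have hc4 : Nat.gcd 2 (r ^ f - 1) < 4 := lt_of_le_of_lt (Nat.gcd_le_left _ (by norm_num)) (by norm_num)
  obtain ⟨l, hl, hd, hl3⟩ := exists_prim (d := 18) hr hf (by norm_num) (by omega)
  refine es_of_row H967.CopChev.row_e7 e hr hF hl hd (by norm_num) ?_ ?_
  · refine prim_dvd hl hl3 hc0 hc4 hcard (Dvd.dvd.mul_left ?_ _)
    rw [← pow_mul, mul_comm f 18]
    exact (hd _).2 dvd_rfl
  · intro p hp hpn
    have h11 := eleven_le hp (x := 6) (by norm_num) hc0 hc4 hcard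
      (q := r ^ f) ⟨(r ^ f) ^ 61 * ((r ^ f) ^ 10 - 1) * ((r ^ f) ^ 14 - 1) * ((r ^ f) ^ 18 - 1), by ring⟩ hpn
    have h133 : Fintype.card chevE7.Idx = 133 := by decide +kernel
    rw [h133]
    omega

theorem es_e8 (h : IsoE8 K) : ∃ s : K, ES s := by
  obtain ⟨F, _, _, ⟨e⟩⟩ := h
  have := H967.CopCycAll.simple_of_equiv e
  have hK : Finite K := Finite.of_equiv _ e.symm.toEquiv
  obtain ⟨r, f, hr, hc, hf, hF⟩ := H967.CopChev.exists_char F
  have hcard : 1 * Nat.card K = (r ^ f) ^ 120 * ((r ^ f) ^ 2 - 1) * ((r ^ f) ^ 8 - 1) * ((r ^ f) ^ 12 - 1) *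
      ((r ^ f) ^ 14 - 1) * ((r ^ f) ^ 18 - 1) * ((r ^ f) ^ 20 - 1) * ((r ^ f) ^ 24 - 1) * ((r ^ f) ^ 30 - 1) := by
    rw [one_mul, Nat.card_congr e.toEquiv, S1065.result hF]
  obtain ⟨l, hl, hd, hl3⟩ := exists_prim (d := 30) hr hf (by norm_num) (by omega)
  refine es_of_row H967.CopChev.row_e8 e hr hF hl hd (by norm_num) ?_ ?_
  · refine prim_dvd hl hl3 (by norm_num) (by norm_num) hcard (Dvd.dvd.mul_left ?_ _)
    rw [← pow_mul, mul_comm f 30]
    exact (hd _).2 dvd_rfl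
  · intro p hp hpn
    have h11 := eleven_le hp (x := 18) (by norm_num) (by norm_num) (by norm_num) hcard
      (q := r ^ f) ⟨(r ^ f) ^ 118 * ((r ^ f) ^ 14 - 1) * ((r ^ f) ^ 20 - 1) * ((r ^ f) ^ 24 - 1) *
        ((r ^ f) ^ 30 - 1), by ring⟩ hpn
    have h248 : Fintype.card chevE8.Idx = 248 := by decide +kernel
    rw [h248]
    omega

theorem es_2e6 (h : Iso2E6 K) : ∃ s : K, ES s := by
  obtain ⟨F, _, _, q, hq, hF, ⟨e⟩⟩ := h
  have := H967.CopCycAll.simple_of_equiv e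
  have hK : Finite K := Finite.of_equiv _ e.symm.toEquiv
  obtain ⟨r, f, hr, hc, hf, rfl, hF'⟩ := H565.CopTw.exists_params hq hF (by norm_num)
  have hcard : Nat.gcd 3 (r ^ f + 1) * Nat.card K = (r ^ f) ^ 36 * ((r ^ f) ^ 2 - 1) * ((r ^ f) ^ 5 + 1) *
      ((r ^ f) ^ 6 - 1) * ((r ^ f) ^ 8 - 1) * ((r ^ f) ^ 9 + 1) * ((r ^ f) ^ 12 - 1) := by
    rw [Nat.card_congr e.toEquiv, S1066.result hq hF]
  have hc0 : 0 < Nat.gcd 3 (r ^ f + 1) := Nat.gcd_pos_of_pos_left _ (by norm_num)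
  have hc4 : Nat.gcd 3 (r ^ f + 1) < 4 := lt_of_le_of_lt (Nat.gcd_le_left _ (by norm_num)) (by norm_num)
  obtain ⟨l, hl, hd, hl3⟩ := exists_prim (d := 9) (f := 2 * f) hr (by omega) (by norm_num) (by omega)
  refine es_of_row (H967.CopTw.row_2e6 hq hF (Schreier.TwESix.sch hq hF)) e hr hF' hl hd (by norm_num) ?_ ?_
  · refine prim_dvd hl hl3 hc0 hc4 hcard (Dvd.dvd.mul_right (Dvd.dvd.mul_left ?_ _) _)
    have h1 : l ∣ r ^ (9 * (2 * f)) - 1 := (hd _).2 dvd_rfl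
    have h2 : r ^ (9 * (2 * f)) - 1 = ((r ^ f) ^ 9 + 1) * ((r ^ f) ^ 9 - 1) := by
      have h3 : r ^ (9 * (2 * f)) = ((r ^ f) ^ 9) ^ 2 := by rw [← pow_mul, ← pow_mul]; congr 1; ring
      rw [h3]
      have := Nat.sq_sub_sq ((r ^ f) ^ 9) 1
      rw [one_pow] at this
      exact this
    rw [h2] at h1
    refine (hl.dvd_mul.1 h1).resolve_right fun h3 => ?_
    rw [← pow_mul, hd] at h3
    have := Nat.le_of_dvd (by omega) h3
    omega
  · intro p hp hpn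
    have h11 := eleven_le hp (x := 6) (by norm_num) hc0 hc4 hcard
      (q := r ^ f) ⟨(r ^ f) ^ 34 * ((r ^ f) ^ 5 + 1) * ((r ^ f) ^ 9 + 1), by ring⟩ hpn
    have h78 : Fintype.card chevE6.Idx = 78 := by decide
    rw [h78]
    omega

end Cfsg.Agent.H316.ES
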